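import Cfsg.Agent.R2.Spec.X4.H10.Num

/-!
# X4, `S = L₂(u)` : numbers (helper10)
-/

set_option autoImplicit false
set_option linter.unusedVariables false

namespace Cfsg.Agent.R2.Spec.X4.H10

theorem poly_a {q : ℤ} (hq : 7 ≤ q) : 4 * (q ^ 3 + 1) < (q ^ 2 - q) * (3 * q ^ 2 - 1) := by
  obtain ⟨x, rfl⟩ : ∃ x : ℕ, q = x + 7 := ⟨(q - 7).toNat, by omega⟩
  have : ((x : ℤ) + 7) ^ 3 = x ^ 3 + 21 * x ^ 2 + 147 * x + 343 := by ring
  nlinarith [sq_nonneg (x : ℤ), pow_nonneg (Int.natCast_nonneg x) 3, pow_nonneg (Int.natCast_nonneg x) 4, Int.natCast_nonneg x]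

/-- the torus of `p (q² + 1) / 2` -/
theorem pKill {q p H b e d : ℤ} (hq : 7 ≤ q) (hp3 : 3 ≤ p) (hd : d = 1 ∨ d = -1) (he : e = 1 ∨ e = -1)
    (hb : b = 1 ∨ b = 2 ∨ b = 4) (hH : 0 < H) (hE : H * (p * (q ^ 2 + 1) - b * e) = q ^ 3 + d) : False := by
  have h1 : (q ^ 2 + 1) ∣ b * H * e - q + d := by
    refine ⟨H * p - q, ?_⟩
    linear_combination (-1 : ℤ) * hE
  have hd1 : d ≤ 1 := by rcases hd with rfl | rfl <;> norm_num
  have hd2 : -1 ≤ d := by rcases hd with rfl | rfl <;> norm_num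
  have hbe : b * e ≤ 4 := by
    rcases hb with rfl | rfl | rfl <;> rcases he with rfl | rfl <;> norm_num
  have h2 : H * (3 * q ^ 2 - 1) ≤ q ^ 3 + 1 := by
    have h3 : 3 * q ^ 2 - 1 ≤ p * (q ^ 2 + 1) - b * e := by nlinarith [sq_nonneg q]
    have := mul_le_mul_of_nonneg_left h3 hH.le
    omega
  have h4 : 4 * H < q ^ 2 - q := by
    by_contra hcon
    rw [not_lt] at hcon
    have h5 := poly_a hq
    have h6 : (q ^ 2 - q) * (3 * q ^ 2 - 1) ≤ 4 * H * (3 * q ^ 2 - 1) :=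
      mul_le_mul_of_nonneg_right hcon (by nlinarith)
    nlinarith
  have h7 : |b * H * e| ≤ 4 * H := by
    rw [abs_mul, abs_mul, abs_of_pos hH]
    have h8 : |e| = 1 := by rcases he with rfl | rfl <;> norm_num
    have h9 : |b| ≤ 4 := by rcases hb with rfl | rfl | rfl <;> norm_num
    rw [h8, mul_one]
    exact mul_le_mul_of_nonneg_right h9 hH.le
  have h10 := abs_le.1 h7
  have h11 : b * H * e - q + d = 0 := by
    apply eq_zero_of_dvd_abs h1
    rw [abs_lt]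
    constructor <;> nlinarith
  have h12 : (q ^ 2 + 1) * (H * p - q) = 0 := by
    linear_combination hE + h11
  have h13 : H * p = q := by
    rcases mul_eq_zero.1 h12 with h | h
    · exfalso; nlinarith
    · omega
  have h14 : H * (b * e - p) = -d := by
    linear_combination h11 - h13
  have h15 : H ∣ 1 := by
    have : H ∣ -d := Dvd.intro _ h14
    rcases hd with rfl | rfl
    · exact (dvd_neg.1 this)
    · simpa using this
  have h16 : H = 1 := Int.eq_one_of_dvd_one hH.le h15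
  subst h16
  rw [one_mul] at h13 h14
  omega

theorem poly_b {q : ℤ} (hq : 7 ≤ q) : 27 * (2 * q * (q ^ 2 + 1) + 1) < (q ^ 2 - q + 1) ^ 3 := by
  obtain ⟨x, rfl⟩ : ∃ x : ℕ, q = x + 7 := ⟨(q - 7).toNat, by omega⟩
  have : (((x : ℤ) + 7) ^ 2 - (x + 7) + 1) ^ 3 - 27 * (2 * (x + 7) * ((x + 7) ^ 2 + 1) + 1) =
      (x ^ 6 + 39 * x ^ 5 + 636 * x ^ 4 + 5497 * x ^ 3 + 26214 * x ^ 2 + 64119 * x + 60580) + 0 := by ring
  have h2 : (0 : ℤ) ≤ x := Int.natCast_nonneg x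
  have h3 : 0 < (((x : ℤ) + 7) ^ 2 - (x + 7) + 1) ^ 3 - 27 * (2 * (x + 7) * ((x + 7) ^ 2 + 1) + 1) := by
    rw [this]; positivity
  omega

theorem vKill {q p κ e c g δ : ℤ} {f : ℕ} (hq : 7 ≤ q) (hp3 : 3 ≤ p) (hpq : p ∣ q) (hg : g = 1 ∨ g = 3)
    (hδ : δ = 1 ∨ δ = -1) (hgκ : g * κ = q ^ 2 + δ * q + 1) (he : e = 1 ∨ e = -1) (hc : c = 1 ∨ c = 2) (hf : 1 ≤ f)
    (hE : κ ^ f + e = c * (p * (q ^ 2 + 1))) : False := by
  have hpq' : p ≤ q := Int.le_of_dvd (by omega) hpq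
  have hc1 : 1 ≤ c := by rcases hc with rfl | rfl <;> norm_num
  have hc2 : c ≤ 2 := by rcases hc with rfl | rfl <;> norm_num
  have he1 : e ≤ 1 := by rcases he with rfl | rfl <;> norm_num
  have he2 : -1 ≤ e := by rcases he with rfl | rfl <;> norm_num
  have hκu : κ ≤ q ^ 2 + q + 1 := by
    rcases hg with rfl | rfl <;> rcases hδ with rfl | rfl <;> nlinarith
  have hκl : q ^ 2 - q + 1 ≤ 3 * κ := by
    rcases hg with rfl | rfl <;> rcases hδ with rfl | rfl <;> nlinarith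
  have hκ1 : 1 ≤ κ := by nlinarith
  have hlow : 3 * (q ^ 2 + 1) ≤ c * (p * (q ^ 2 + 1)) := by
    have h1 : 3 ≤ c * p := by nlinarith
    calc 3 * (q ^ 2 + 1) ≤ (c * p) * (q ^ 2 + 1) := mul_le_mul_of_nonneg_right h1 (by positivity)
      _ = _ := by ring
  have hupp : c * (p * (q ^ 2 + 1)) ≤ 2 * q * (q ^ 2 + 1) := by
    have h1 : c * p ≤ 2 * q := by nlinarith
    calc c * (p * (q ^ 2 + 1)) = (c * p) * (q ^ 2 + 1) := by ring
      _ ≤ _ := mul_le_mul_of_nonneg_right h1 (by positivity)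
  rcases (by omega : f = 1 ∨ f = 2 ∨ 3 ≤ f) with rfl | rfl | hf3
  · rw [pow_one] at hE
    nlinarith
  · have hδ2 : δ * δ = 1 := by rcases hδ with rfl | rfl <;> norm_num
    have h1 : (q ^ 2 + 1) ∣ g ^ 2 * e - 1 := by
      have h2 : g ^ 2 * e - 1 = (q ^ 2 + 1) * (g ^ 2 * c * p - (q ^ 2 + 1) - 2 * δ * q - 1) - (δ * δ - 1) * q ^ 2 := by
        have h3 : g ^ 2 * κ ^ 2 = (q ^ 2 + δ * q + 1) ^ 2 := by rw [← hgκ]; ring
        linear_combination g ^ 2 * hE - h3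
      rw [h2, hδ2, sub_self, zero_mul, sub_zero]
      exact Dvd.intro _ rfl
    have h49 : 49 ≤ q ^ 2 := by nlinarith
    rcases hg with rfl | rfl
    · rcases he with rfl | rfl
      · rw [one_mul] at hgκ
        rw [hgκ] at hE
        have h4 : (q ^ 2 + 1) * (q ^ 2 + 2 * δ * q + 2 - c * p) = 0 := by
          linear_combination hE - q ^ 2 * hδ2
        have h5 : q ^ 2 + 2 * δ * q + 2 - c * p = 0 := by
          rcases mul_eq_zero.1 h4 with h | h
          · exfalso; nlinarith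
          · exact h
        have h6 : p ∣ 2 := by
          have h7 : (2 : ℤ) = c * p - q * (q + 2 * δ) := by linear_combination h5
          rw [h7]
          exact dvd_sub (dvd_mul_left _ _) (hpq.mul_right _)
        have := Int.le_of_dvd (by norm_num) h6
        omega
      · have := Int.le_of_dvd (by norm_num) ((dvd_neg).2 h1)
        omega
    · rcases he with rfl | rfl
      · have := Int.le_of_dvd (by norm_num) h1
        omega
      · have := Int.le_of_dvd (by norm_num) ((dvd_neg).2 h1)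
        omega
  · have h1 : κ ^ 3 ≤ κ ^ f := pow_le_pow_right₀ hκ1 hf3
    have h2 := poly_b hq
    have h3 : (q ^ 2 - q + 1) ^ 3 ≤ (3 * κ) ^ 3 := pow_le_pow_left₀ (by nlinarith) hκl 3
    nlinarith

theorem dKill {q T T' D h h' A B k k' d : ℤ} (hq : 7 ≤ q) (hd : d = 1 ∨ d = -1) (hA : 2 * A = q ^ 3 + d)
    (hB : 2 * B = q ^ 3 - d) (hk : q ^ 2 - q + 1 ≤ 3 * k) (hk' : q ^ 2 - q + 1 ≤ 3 * k') (hkT : k ≤ T) (hkT' : k' ≤ T')
    (hh : 0 < h) (hh' : 0 < h') (hE : h * T = A) (hE' : h' * T' = B) (hD : T - T' = D)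
    (hD2 : |D| = 1 ∨ (|D| = 2 ∧ 17 ≤ q)) : |D| = 1 ∧ T = A ∧ T' = B := by
  have hd1 : |d| = 1 := by rcases hd with rfl | rfl <;> norm_num
  have hq2 : 43 ≤ q ^ 2 - q + 1 := by nlinarith
  -- bounds for `h'`
  have hh2 : h' * (q ^ 2 - q + 1) ≤ 3 * B := by
    have : h' * (q ^ 2 - q + 1) ≤ h' * (3 * T') := mul_le_mul_of_nonneg_left (by omega) hh'.le
    nlinarith
  have hh3 : 2 * h' ≤ 3 * (q + 1) := by
    by_contra hcon
    rw [not_le] at hcon
    have h4 : (3 * (q + 1) + 1) * (q ^ 2 - q + 1) ≤ 2 * h' * (q ^ 2 - q + 1) :=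
      mul_le_mul_of_nonneg_right (by omega) (by omega)
    have h5 : 2 * B ≤ q ^ 3 + 1 := by rcases hd with rfl | rfl <;> omega
    nlinarith
  have hdiff : (h - h') * T + h' * D = d := by
    have hAB : A - B = d := by omega
    rw [← hD]
    linear_combination hE - hE' + hAB
  by_cases hhh : h = h'
  · subst hhh
    rw [sub_self, zero_mul, zero_add] at hdiff
    have h6 : |h| * |D| = 1 := by rw [← abs_mul, hdiff, hd1]
    rw [abs_of_pos hh] at h6
    have h7 : h = 1 := by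
      have h8 : h ∣ 1 := Dvd.intro _ h6
      exact Int.eq_one_of_dvd_one hh.le h8
    subst h7
    rw [one_mul] at h6 hE hE'
    exact ⟨h6, hE, hE'⟩
  · exfalso
    have h1 : 1 ≤ |h - h'| := Int.one_le_abs (sub_ne_zero.2 hhh)
    have hT : 0 < T := by omega
    have h2 : T ≤ |(h - h') * T| := by
      rw [abs_mul, abs_of_pos hT]
      nlinarith
    have h3 : (h - h') * T = d - h' * D := by linear_combination hdiff
    have h4 : |d - h' * D| ≤ 1 + h' * |D| := by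
      calc |d - h' * D| ≤ |d| + |h' * D| := abs_sub _ _
        _ = _ := by rw [hd1, abs_mul, abs_of_pos hh']
    rw [h3] at h2
    rcases hD2 with h5 | ⟨h5, h6⟩
    · rw [h5] at h4
      nlinarith
    · rw [h5] at h4
      nlinarith

theorem eKill {q κ κ' X e g g' δ T : ℤ} {f : ℕ} (hq : 7 ≤ q) (hX : 2 * X ≤ q ^ 3 + 1) (hX0 : 0 < X)
    (hg : (g = 1 ∨ g = 3) ∧ (g' = 1 ∨ g' = 3)) (hgg : g = 1 ∨ g' = 1) (hδ : δ = 1 ∨ δ = -1)
    (hgκ : g * κ = q ^ 2 + δ * q + 1) (hgκ' : g' * κ' = q ^ 2 - δ * q + 1)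
    (he : e = 1 ∨ e = -1) (hf : 1 ≤ f) (hT : 2 * T = κ ^ f + e) (hκT : κ' ∣ T) (hTX : T ∣ X)
    (hq9 : q < 11 → 19 ≤ κ ∧ (q = 7 ∨ (q = 9 ∧ 73 ≤ κ)))
    (hq7 : q = 7 → g' = 1 ∨ κ' = 19 ∧ κ = 43) : False := by
  have he1 : e ≤ 1 := by rcases he with rfl | rfl <;> norm_num
  have he2 : -1 ≤ e := by rcases he with rfl | rfl <;> norm_num
  have hκu : κ ≤ q ^ 2 + q + 1 := by
    rcases hg.1 with rfl | rfl <;> rcases hδ with rfl | rfl <;> nlinarith
  have hκl : q ^ 2 - q + 1 ≤ 3 * κ := by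
    rcases hg.1 with rfl | rfl <;> rcases hδ with rfl | rfl <;> nlinarith
  have hκ1 : 15 ≤ κ := by nlinarith
  have hTX' : T ≤ X := Int.le_of_dvd hX0 hTX
  rcases (by omega : f = 1 ∨ 2 ≤ f) with rfl | hf2
  · rw [pow_one] at hT
    have hT0 : 0 < T := by omega
    have h1 : κ' ≤ T := Int.le_of_dvd hT0 hκT
    have hg' : g' = 3 := by
      rcases hg.2 with h | h
      · exfalso
        rw [h, one_mul] at hgκ'
        rcases hδ with rfl | rfl <;> nlinarith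
      · exact h
    have hg1 : g = 1 := by
      rcases hgg with h | h
      · exact h
      · omega
    rw [hg'] at hgκ'
    rw [hg1, one_mul] at hgκ
    have h2 : κ' ∣ 2 * δ * q + e := by
      have h3 : 2 * δ * q + e = 2 * T - 3 * κ' := by
        rw [hT, hgκ, hgκ']; ring
      rw [h3]
      exact dvd_sub (hκT.mul_left 2) (dvd_mul_left _ _)
    have h4 : 2 * δ * q + e ≠ 0 := by rcases hδ with rfl | rfl <;> omega
    have h5 : κ' ≤ |2 * δ * q + e| := Int.le_of_dvd (abs_pos.2 h4) ((dvd_abs _ _).2 h2)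
    have h6 : |2 * δ * q + e| ≤ 2 * q + 1 := by
      rw [abs_le]
      rcases hδ with rfl | rfl <;> constructor <;> nlinarith
    have h7 : q ≤ 7 := by
      by_contra hcon
      rcases hδ with rfl | rfl <;> nlinarith
    have h8 : q = 7 := by omega
    rcases hq7 h8 with h9 | ⟨h9, h10⟩
    · omega
    · subst h8
      rw [h9] at h5
      omega
  · have h1 : κ ^ 2 ≤ κ ^ f := pow_le_pow_right₀ (by omega) hf2
    have h2 : κ ^ 2 ≤ q ^ 3 + 2 := by nlinarith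
    rcases lt_or_ge q 11 with h3 | h3
    · obtain ⟨h4, h5 | ⟨h5, h6⟩⟩ := hq9 h3
      · subst h5; nlinarith
      · subst h5; nlinarith
    · have h4 : (q ^ 2 - q + 1) ^ 2 ≤ (3 * κ) ^ 2 := pow_le_pow_left₀ (by nlinarith) hκl 2
      have h5 : (q ^ 2 - q + 1) ^ 2 ≤ 9 * (q ^ 3 + 2) := by nlinarith
      obtain ⟨x, rfl⟩ : ∃ x : ℕ, q = x + 11 := ⟨(q - 11).toNat, by omega⟩
      have h6 : (((x : ℤ) + 11) ^ 2 - (x + 11) + 1) ^ 2 - 9 * ((x + 11) ^ 3 + 2) =
        x ^ 4 + 33 * x ^ 3 + 366 * x ^ 2 + 1395 * x + 324 := by ring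
      have h7 : (0 : ℤ) ≤ x := Int.natCast_nonneg x
      have h8 : 0 < (((x : ℤ) + 11) ^ 2 - (x + 11) + 1) ^ 2 - 9 * ((x + 11) ^ 3 + 2) := by
        rw [h6]; positivity
      omega

end Cfsg.Agent.R2.Spec.X4.H10
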