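import Cfsg.Agent.R2.Spec.X4.H10.Num3

/-!
# X4, the symplectic and orthogonal rows: the numeric core, IV (helper10)

* `coreQ` : the two-factor tori, `4`-case.
-/

set_option autoImplicit false

namespace Cfsg.Agent.R2.Spec.X4.H10

/-! ### finite checks -/

def chkQ (u q : ℕ) : Bool :=
  !(17 ≤ q && q < 5 * u && (u - 1) * (u ^ 4 - 1) ≤ 2 * (q ^ 3 + 1)) ||
    (u * (q + 1) ≤ q ^ 2 + 1 && (u + 1) * (q ^ 3 + 1) < (u ^ 4 - 1) * (q ^ 2 + 1 - u * (q + 1)))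

def chkQAll : Bool := (List.range 17).all fun u => (List.range 85).all fun q => !(4 ≤ u) || chkQ u q

theorem chkQAll_true : chkQAll = true := by decide +kernel

theorem chkQ_int {u q : ℤ} (hu : 4 ≤ u) (hu' : u ≤ 16) (hq : 17 ≤ q) (hqu : q < 5 * u)
    (hb : (u - 1) * (u ^ 4 - 1) ≤ 2 * (q ^ 3 + 1)) :
    u * (q + 1) ≤ q ^ 2 + 1 ∧ (u + 1) * (q ^ 3 + 1) < (u ^ 4 - 1) * (q ^ 2 + 1 - u * (q + 1)) := by
  obtain ⟨a, rfl⟩ : ∃ a : ℕ, u = a := ⟨u.toNat, by omega⟩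
  obtain ⟨b, rfl⟩ : ∃ b : ℕ, q = b := ⟨q.toNat, by omega⟩
  have h := List.all_eq_true.1 chkQAll_true a (List.mem_range.2 (by omega))
  have h2 := List.all_eq_true.1 h b (List.mem_range.2 (by omega))
  have ha4 : 1 ≤ a ^ 4 := Nat.one_le_pow _ _ (by omega)
  have h3 : (a - 1) * (a ^ 4 - 1) ≤ 2 * (b ^ 3 + 1) := by
    zify [ha4, (by omega : 1 ≤ a)]
    exact hb
  simp only [chkQ, Bool.or_eq_true, Bool.and_eq_true, Bool.not_eq_true', decide_eq_true_eq,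
    Bool.and_eq_false_iff, decide_eq_false_iff_not] at h2
  rcases h2 with h2 | (h2 | h2) | ⟨h2, h4⟩
  · omega
  · omega
  · exact absurd h3 h2
  · refine ⟨by exact_mod_cast h2, ?_⟩
    zify [ha4, h2] at h4
    exact h4

section P

variable {q d A B k z u g h e1 e2 e3 : ℤ} {N : ℕ}

/-- the inequality of the `4`-case -/
theorem ineqQ (hd : d = 1 ∨ d = -1) (hq : 17 ≤ q) (hqd : q % 4 = d % 4) (hA : 2 * A = q ^ 3 + d)
    (hz : 2 * z = q ^ 2 + 1) (hu : 2 ≤ u) (hN : 3 ≤ N)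
    (hh : h % 2 = 1) (hh0 : 0 < h) (hE : h * (u + e3) * (u ^ N + e1) = g * A)
    (hzD : z ∣ u * u ^ N + e2) (hgD : g ∣ u * u ^ N + e2)
    (hc : (e1 = 1 ∧ e2 = -1 ∧ e3 = 1 ∧ (g = 1 ∨ (g = 4 ∧ 5 ≤ u))) ∨ (e1 = -1 ∧ e2 = 1 ∧ e3 = 1 ∧ g = 1) ∨
      (e1 = 1 ∧ e2 = 1 ∧ e3 = -1 ∧ (g = 1 ∨ g = 4)))
    (hg1 : g = 1 → u % 2 = 0) :
    (u ^ N + e1) * (q ^ 2 + 1 - u * (q + 1)) ≤ (u + e3) * (q ^ 3 + 1) ∧
      2 * ((u + e3) * (u ^ N + e1)) ≤ g * (q ^ 3 + 1) := by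
  have hg : g = 1 ∨ g = 4 := by tauto
  obtain ⟨σ, hσ, hσw⟩ : ∃ σ : ℤ, (σ = 1 ∨ (σ = -1 ∧ g = 1)) ∧ e1 * u - e2 = σ * (u + e3) := by
    rcases hc with ⟨rfl, rfl, rfl, -⟩ | ⟨rfl, rfl, rfl, h⟩ | ⟨rfl, rfl, rfl, -⟩
    · exact ⟨1, Or.inl rfl, by ring⟩
    · exact ⟨-1, Or.inr ⟨rfl, h⟩, by ring⟩
    · exact ⟨1, Or.inl rfl, by ring⟩
  have he1 : e1 = 1 ∨ e1 = -1 := by tauto
  have hY8' : 8 ≤ u ^ N := by
    have h1 : u ^ 3 ≤ u ^ N := pow_le_pow_right₀ (by omega) hN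
    have : (2 : ℤ) ^ 3 ≤ u ^ 3 := pow_le_pow_left₀ (by norm_num) hu 3
    linarith
  have hw1 : 1 ≤ u + e3 := by
    rcases hc with ⟨rfl, rfl, rfl, -⟩ | ⟨rfl, rfl, rfl, -⟩ | ⟨rfl, rfl, rfl, -⟩ <;> omega
  have hwo : g = 1 → (u + e3) % 2 = 1 := by
    intro h
    have := hg1 h
    rcases hc with ⟨rfl, rfl, rfl, -⟩ | ⟨rfl, rfl, rfl, -⟩ | ⟨rfl, rfl, rfl, -⟩ <;> omega
  set w := u + e3 with hwd
  set Y := u ^ N with hYd
  have hX0 : 0 < Y + e1 := by rcases he1 with rfl | rfl <;> omega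
  have hz0 : 0 < z := by nlinarith
  obtain ⟨t, ht⟩ : ∃ t, q - d = 4 * t := by
    obtain ⟨t, ht⟩ : (4 : ℤ) ∣ q - d := Int.dvd_of_emod_eq_zero (by omega)
    exact ⟨t, ht⟩
  have hz2 : z % 2 = 1 := by
    have h4 : q ^ 2 % 4 = 1 := by
      have : q % 4 = 1 ∨ q % 4 = 3 := by rcases hd with rfl | rfl <;> omega
      rcases this with h | h <;> simp [pow_succ, Int.mul_emod, h]
    omega
  have ht0 : 0 < t := by rcases hd with rfl | rfl <;> omega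
  have htq : 4 * t ≤ q + 1 := by rcases hd with rfl | rfl <;> omega
  have hA' : A = q * z - 2 * t := by
    have : 2 * A = 2 * (q * z - 2 * t) := by linear_combination hA - q * hz - ht
    linarith
  -- `g z ∣ D`
  have hgz : g * z ∣ u * Y + e2 := by
    apply IsCoprime.mul_dvd _ hgD hzD
    rcases hg with rfl | rfl
    · exact isCoprime_one_left
    · have h1 : IsCoprime (2 : ℤ) z := by
        refine ⟨-(z / 2), 1, ?_⟩
        have := Int.emod_add_mul_ediv z 2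
        rw [hz2] at this
        linarith
      have h2 := h1.mul_left h1
      rwa [show (2 : ℤ) * 2 = 4 by norm_num] at h2
  obtain ⟨y, hy⟩ := hgz
  have hkey : g * z * (u * q - h * w * y) = σ * (h * w ^ 2) + 2 * (u * g * t) := by
    linear_combination (-u) * hE - u * g * hA' + h * w * hσw + h * w * hy
  have hgA : 2 * (g * A) ≤ g * (q ^ 3 + 1) := by
    rcases hg with rfl | rfl <;> rcases hd with rfl | rfl <;> linarith
  have hgz0 : 0 < g * z := by rcases hg with rfl | rfl <;> linarith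
  have hg0 : 0 < g := by omega
  refine ⟨?_, ?_⟩
  · by_cases hE0 : u * q - h * w * y = 0
    · exfalso
      rw [hE0, mul_zero] at hkey
      have h1 : 0 < h * w ^ 2 := by positivity
      have h2 : 0 < u * g * t := by positivity
      rcases hσ with rfl | ⟨rfl, hg'⟩
      · linarith
      · have hw' := hwo hg'
        have h3 : (h * w ^ 2) % 2 = 1 := by
          rw [Int.mul_emod, hh, pow_two, Int.mul_emod w w, hw']
          rfl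
        omega
    · have h1 : g * z ≤ h * w ^ 2 + 2 * (u * g * t) := by
        have a1 : g * z * 1 ≤ g * z * |u * q - h * w * y| :=
          mul_le_mul_of_nonneg_left (Int.one_le_abs hE0) hgz0.le
        have a2 : g * z * |u * q - h * w * y| = |σ * (h * w ^ 2) + 2 * (u * g * t)| := by
          rw [← hkey, abs_mul, abs_of_pos hgz0]
        have a3 : |σ * (h * w ^ 2) + 2 * (u * g * t)| ≤ h * w ^ 2 + 2 * (u * g * t) := by
          have b1 : 0 ≤ h * w ^ 2 := by positivity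
          have b2 : 0 ≤ u * g * t := by positivity
          rw [abs_le]
          rcases hσ with rfl | ⟨rfl, -⟩ <;> constructor <;> linarith
        linarith
      have h2 : g * ((Y + e1) * (q ^ 2 + 1 - u * (q + 1))) ≤ g * (w * (q ^ 3 + 1)) := by
        have a1 : (g * z) * (Y + e1) ≤ (h * w ^ 2 + 2 * (u * g * t)) * (Y + e1) :=
          mul_le_mul_of_nonneg_right h1 hX0.le
        have a2 : (h * w ^ 2) * (Y + e1) = w * (g * A) := by linear_combination w * hE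
        have a3 : w * (2 * (g * A)) ≤ w * (g * (q ^ 3 + 1)) := mul_le_mul_of_nonneg_left hgA (by omega)
        have a4 : (4 * t) * (u * g * (Y + e1)) ≤ (q + 1) * (u * g * (Y + e1)) :=
          mul_le_mul_of_nonneg_right htq (by positivity)
        have a5 : g * ((Y + e1) * (q ^ 2 + 1)) = 2 * ((g * z) * (Y + e1)) := by rw [← hz]; ring
        linarith
      exact le_of_mul_le_mul_left h2 hg0
  · have h1 : 1 * (w * (Y + e1)) ≤ h * (w * (Y + e1)) := mul_le_mul_of_nonneg_right (by omega) (by positivity)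
    have h2 : h * (w * (Y + e1)) = g * A := by rw [← hE]; ring
    linarith

theorem polyS {q : ℤ} (hq : 17 ≤ q) : 9 * (q ^ 3 + 1) < (q ^ 2 - q + 1) * (q ^ 2 + 1 - 2 * (q + 1)) := by
  obtain ⟨x, rfl⟩ := exists_add hq
  have : 0 < (((x : ℤ) + 17) ^ 2 - (x + 17) + 1) * ((x + 17) ^ 2 + 1 - 2 * ((x + 17) + 1)) - 9 * ((x + 17) ^ 3 + 1) := by
    ring_nf; positivity
  linarith

theorem polyT {q : ℤ} (hq : 17 ≤ q) : 6 * (q ^ 3 + 1) < (q ^ 2 - q + 1) * (q ^ 2 + 1 - 3 * (q + 1)) := by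
  obtain ⟨x, rfl⟩ := exists_add hq
  have : 0 < (((x : ℤ) + 17) ^ 2 - (x + 17) + 1) * ((x + 17) ^ 2 + 1 - 3 * ((x + 17) + 1)) - 6 * ((x + 17) ^ 3 + 1) := by
    ring_nf; positivity
  linarith

theorem polyU {q : ℤ} (hq : 20 ≤ q) : (3 * q + 15) * (q ^ 3 + 1) < (q ^ 2 - q + 1) * (4 * q ^ 2 - q + 5) := by
  obtain ⟨x, rfl⟩ : ∃ x : ℕ, q = x + 20 := ⟨(q - 20).toNat, by omega⟩
  have : 0 < (((x : ℤ) + 20) ^ 2 - (x + 20) + 1) * (4 * (x + 20) ^ 2 - (x + 20) + 5) - (3 * ((x : ℤ) + 20) + 15) * ((x + 20) ^ 3 + 1) := by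
    ring_nf; positivity
  linarith

/-- `u ≥ 4`, `N ≥ 4` -/
theorem big4 {X w : ℤ} (hq : 17 ≤ q) (hu : 4 ≤ u) (hX : u ^ 4 - 1 ≤ X) (hX3 : q ^ 2 - q + 1 ≤ 3 * X)
    (hw1 : u - 1 ≤ w) (hw2 : w ≤ u + 1) (hb : 2 * (w * X) ≤ 4 * (q ^ 3 + 1))
    (hcc : X * (q ^ 2 + 1 - u * (q + 1)) ≤ w * (q ^ 3 + 1)) : False := by
  have hq3 : 0 ≤ q ^ 3 + 1 := by positivity
  have hu4 : (4 : ℤ) ^ 4 ≤ u ^ 4 := pow_le_pow_left₀ (by norm_num) hu 4
  have hX0 : 0 < X := by linarith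
  have hc2 : X * (q ^ 2 + 1 - u * (q + 1)) ≤ (u + 1) * (q ^ 3 + 1) :=
    hcc.trans (mul_le_mul_of_nonneg_right hw2 hq3)
  have hb2 : (u - 1) * (u ^ 4 - 1) ≤ 2 * (q ^ 3 + 1) := by
    have a1 : (u - 1) * (u ^ 4 - 1) ≤ w * X := mul_le_mul hw1 hX (by linarith) (by linarith)
    linarith
  by_cases h5 : 5 * u ≤ q
  · have h1 : X * (4 * q ^ 2 - q + 5) ≤ 5 * ((u + 1) * (q ^ 3 + 1)) := by
      have a1 : 4 * q ^ 2 - q + 5 ≤ 5 * (q ^ 2 + 1 - u * (q + 1)) := by nlinarith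
      have a2 : X * (4 * q ^ 2 - q + 5) ≤ X * (5 * (q ^ 2 + 1 - u * (q + 1))) := mul_le_mul_of_nonneg_left a1 hX0.le
      linarith
    have h2 : (q ^ 2 - q + 1) * (4 * q ^ 2 - q + 5) ≤ (3 * X) * (4 * q ^ 2 - q + 5) :=
      mul_le_mul_of_nonneg_right hX3 (by nlinarith)
    have h3 : (15 * (u + 1)) * (q ^ 3 + 1) ≤ (3 * q + 15) * (q ^ 3 + 1) :=
      mul_le_mul_of_nonneg_right (by linarith) hq3
    have := polyU (q := q) (by omega)
    linarith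
  · rw [not_le] at h5
    have h16 : u ≤ 16 := by
      by_contra hcon
      have h17 : 17 ≤ u := by omega
      have a1 : q ^ 3 ≤ (5 * u - 1) ^ 3 := pow_le_pow_left₀ (by omega) (by omega) 3
      obtain ⟨x, rfl⟩ := exists_add h17
      have a2 : 0 < (((x : ℤ) + 17) - 1) * ((x + 17) ^ 4 - 1) - 2 * ((5 * (x + 17) - 1) ^ 3 + 1) := by
        ring_nf; positivity
      linarith
    obtain ⟨h1, h2⟩ := chkQ_int hu h16 hq h5 hb2
    have h3 : (u ^ 4 - 1) * (q ^ 2 + 1 - u * (q + 1)) ≤ X * (q ^ 2 + 1 - u * (q + 1)) :=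
      mul_le_mul_of_nonneg_right hX (by linarith)
    linarith

/-- `u ≥ 16`, `N = 3` -/
theorem big3 {X w : ℤ} (hq : 17 ≤ q) (hu : 16 ≤ u) (hX : u ^ 3 - 1 ≤ X) (hX' : X ≤ u ^ 3 + 1)
    (hX3 : q ^ 2 - q + 1 ≤ 3 * X) (hw1 : u - 1 ≤ w) (hw2 : w ≤ u + 1) (hb : 2 * (w * X) ≤ q ^ 3 + 1)
    (hcc : X * (q ^ 2 + 1 - u * (q + 1)) ≤ w * (q ^ 3 + 1)) : False := by
  have hq3 : 0 ≤ q ^ 3 + 1 := by positivity
  have hu3 : (16 : ℤ) ^ 3 ≤ u ^ 3 := pow_le_pow_left₀ (by norm_num) hu 3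
  have hX0 : 0 < X := by linarith
  have hc2 : X * (q ^ 2 + 1 - u * (q + 1)) ≤ (u + 1) * (q ^ 3 + 1) :=
    hcc.trans (mul_le_mul_of_nonneg_right hw2 hq3)
  have hb2 : 2 * ((u - 1) * (u ^ 3 - 1)) ≤ q ^ 3 + 1 := by
    have a1 : (u - 1) * (u ^ 3 - 1) ≤ w * X := mul_le_mul hw1 hX (by linarith) (by linarith)
    linarith
  obtain ⟨x, rfl⟩ : ∃ x : ℕ, u = x + 16 := ⟨(u - 16).toNat, by omega⟩
  have h3 : 3 * ((x : ℤ) + 16) ≤ q := by
    by_contra hcon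
    have a1 : q ^ 3 ≤ (3 * ((x : ℤ) + 16)) ^ 3 := pow_le_pow_left₀ (by omega) (by omega) 3
    have a2 : 0 < 2 * ((((x : ℤ) + 16) - 1) * ((x + 16) ^ 3 - 1)) - ((3 * (x + 16)) ^ 3 + 1) := by
      ring_nf; positivity
    linarith
  -- `X (2 q² - q + 3) ≤ 3 (u + 1) (q³ + 1)`
  have h4 : (((x : ℤ) + 16) ^ 3 - 1) * (2 * q ^ 2 - q + 3) ≤ 3 * ((x + 16 + 1) * (q ^ 3 + 1)) := by
    have a1 : 2 * q ^ 2 - q + 3 ≤ 3 * (q ^ 2 + 1 - (x + 16) * (q + 1)) := by nlinarith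
    have a2 : (((x : ℤ) + 16) ^ 3 - 1) * (2 * q ^ 2 - q + 3) ≤ X * (3 * (q ^ 2 + 1 - (x + 16) * (q + 1))) := by
      apply mul_le_mul hX a1 (by nlinarith) hX0.le
    linarith
  -- `2 q ≥ u²`
  have h5 : ((x : ℤ) + 16) ^ 2 ≤ 2 * q := by
    by_contra hcon
    rw [not_le] at hcon
    have a1 : 2 * (q ^ 3 + 1) ≤ ((x : ℤ) + 16) ^ 2 * q ^ 2 := by
      have b1 : (2 * q + 1) * q ^ 2 ≤ ((x : ℤ) + 16) ^ 2 * q ^ 2 := mul_le_mul_of_nonneg_right (by omega) (by positivity)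
      nlinarith
    have a2 : 6 * ((((x : ℤ) + 16) + 1) * (q ^ 3 + 1)) ≤ 3 * (x + 16 + 1) * ((x + 16) ^ 2 * q ^ 2) := by
      have := mul_le_mul_of_nonneg_left a1 (by positivity : (0 : ℤ) ≤ 3 * (x + 16 + 1))
      linarith
    -- `2 (u³ - 1) (2 q² - q + 3) > 3 (u + 1) u² q²`
    have a3 : 2 * ((((x : ℤ) + 16) ^ 3 - 1) * (2 * q ^ 2 - q + 3)) ≤ 3 * (x + 16 + 1) * ((x + 16) ^ 2 * q ^ 2) := by
      linarith
    have a4 : (((x : ℤ) + 16) ^ 3 - 1) * (2 * q ^ 2 - q + 3) ≥ (((x : ℤ) + 16) ^ 3 - 1) * (q ^ 2 * 2 - q) := by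
      apply mul_le_mul_of_nonneg_left _ (by linarith)
      linarith
    have a5 : 48 * q ≤ q ^ 2 := by nlinarith
    have a6 : (((x : ℤ) + 16) ^ 3 - 1) * (95 * q ^ 2) ≤ 48 * ((((x : ℤ) + 16) ^ 3 - 1) * (q ^ 2 * 2 - q)) := by
      have b1 : 95 * q ^ 2 ≤ 48 * (q ^ 2 * 2 - q) := by linarith
      have := mul_le_mul_of_nonneg_left b1 (by linarith : (0 : ℤ) ≤ ((x : ℤ) + 16) ^ 3 - 1)
      linarith
    have a7 : q ^ 2 * (190 * (((x : ℤ) + 16) ^ 3 - 1)) ≤ q ^ 2 * (144 * (x + 16 + 1) * (x + 16) ^ 2) := by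
      linarith
    have a8 := le_of_mul_le_mul_left a7 (by positivity)
    have a9 : 0 < 190 * (((x : ℤ) + 16) ^ 3 - 1) - 144 * (x + 16 + 1) * (x + 16) ^ 2 := by
      ring_nf; positivity
    linarith
  have h6 : (((x : ℤ) + 16) ^ 2) * (((x : ℤ) + 16) ^ 2 - 2) ≤ (2 * q) * (2 * q - 2) := by
    apply mul_le_mul h5 (by linarith) (by nlinarith) (by linarith)
  have h7 : 0 < (((x : ℤ) + 16) ^ 2) * (((x : ℤ) + 16) ^ 2 - 2) - 4 * (3 * (((x : ℤ) + 16) ^ 3 + 1)) := by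
    ring_nf; positivity
  nlinarith

/-- **The two-factor tori, `4`-case.** -/
theorem coreQ (hd : d = 1 ∨ d = -1) (hq : 17 ≤ q) (hqd : q % 4 = d % 4) (hA : 2 * A = q ^ 3 + d)
    (hz : 2 * z = q ^ 2 + 1) (hk3 : q ^ 2 - q + 1 ≤ 3 * k) (hu : 2 ≤ u) (hN : 3 ≤ N) (hk : k ∣ u ^ N + e1)
    (hh : h % 2 = 1) (hh0 : 0 < h) (hE : h * (u + e3) * (u ^ N + e1) = g * A)
    (hzD : z ∣ u * u ^ N + e2) (hgD : g ∣ u * u ^ N + e2)
    (hc : (e1 = 1 ∧ e2 = -1 ∧ e3 = 1 ∧ (g = 1 ∨ (g = 4 ∧ 5 ≤ u))) ∨ (e1 = -1 ∧ e2 = 1 ∧ e3 = 1 ∧ g = 1) ∨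
      (e1 = 1 ∧ e2 = 1 ∧ e3 = -1 ∧ (g = 1 ∨ g = 4)))
    (hg1 : g = 1 → u % 2 = 0 ∧ (u = 2 ∨ u = 4 ∨ u = 8 ∨ 16 ≤ u)) (hg4 : g = 4 → u % 2 = 1 ∧ 4 ≤ N) : False := by
  obtain ⟨hcc, hb⟩ := ineqQ hd hq hqd hA hz hu hN hh hh0 hE hzD hgD hc fun h => (hg1 h).1
  have hg : g = 1 ∨ g = 4 := by tauto
  have he1 : e1 = 1 ∨ e1 = -1 := by tauto
  have hY8' : 8 ≤ u ^ N := by
    have h1 : u ^ 3 ≤ u ^ N := pow_le_pow_right₀ (by omega) hN
    have : (2 : ℤ) ^ 3 ≤ u ^ 3 := pow_le_pow_left₀ (by norm_num) hu 3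
    linarith
  have hX0 : 0 < u ^ N + e1 := by rcases he1 with rfl | rfl <;> omega
  have hkX := Int.le_of_dvd hX0 hk
  have hX3 : q ^ 2 - q + 1 ≤ 3 * (u ^ N + e1) := by linarith
  have hw1 : u - 1 ≤ u + e3 := by
    rcases hc with ⟨rfl, rfl, rfl, -⟩ | ⟨rfl, rfl, rfl, -⟩ | ⟨rfl, rfl, rfl, -⟩ <;> omega
  have hw2 : u + e3 ≤ u + 1 := by
    rcases hc with ⟨rfl, rfl, rfl, -⟩ | ⟨rfl, rfl, rfl, -⟩ | ⟨rfl, rfl, rfl, -⟩ <;> omega
  have hq3 : 0 ≤ q ^ 3 + 1 := by positivity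
  have hq91 : 273 ≤ q ^ 2 - q + 1 := by nlinarith
  have h4 : u = 2 → (u + e3) ≤ 3 → False := by
    intro h2 hw
    have a1 : (q ^ 2 - q + 1) * (q ^ 2 + 1 - 2 * (q + 1)) ≤ (3 * (u ^ N + e1)) * (q ^ 2 + 1 - 2 * (q + 1)) :=
      mul_le_mul_of_nonneg_right hX3 (by nlinarith)
    have a2 : (u + e3) * (q ^ 3 + 1) ≤ 3 * (q ^ 3 + 1) := mul_le_mul_of_nonneg_right hw hq3
    have := polyS hq
    rw [h2] at hcc a1 a2
    linarith
  have hbig : 4 ≤ u → 4 ≤ N → False := by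
    intro hu4 hN4
    have hY4 : u ^ 4 ≤ u ^ N := pow_le_pow_right₀ (by omega) hN4
    refine big4 (X := u ^ N + e1) (w := u + e3) hq hu4 ?_ hX3 hw1 hw2 ?_ hcc
    · rcases he1 with rfl | rfl <;> linarith
    · have : g * (q ^ 3 + 1) ≤ 4 * (q ^ 3 + 1) := mul_le_mul_of_nonneg_right (by omega) hq3
      linarith
  rcases hg with rfl | rfl
  · obtain ⟨hu2, hu'⟩ := hg1 rfl
    rcases hu' with h | h | h | h
    · exact h4 h (by omega)
    · by_cases hN4 : 4 ≤ N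
      · exact hbig (by omega) hN4
      · have hN3 : N = 3 := by omega
        rw [h, hN3] at hX3
        rcases he1 with rfl | rfl <;> norm_num at hX3 <;> linarith
    · by_cases hN4 : 4 ≤ N
      · exact hbig (by omega) hN4
      · have hN3 : N = 3 := by omega
        rw [h, hN3] at hX3 hcc
        have hq39 : q ≤ 39 := by
          by_contra hcon
          have : 40 * 39 ≤ q * (q - 1) := mul_le_mul (by omega) (by omega) (by norm_num) (by omega)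
          rcases he1 with rfl | rfl <;> norm_num at hX3 <;> nlinarith
        have h5 : (8 : ℤ) + e3 ≤ 9 := by omega
        have h6 : (8 + e3) * (q ^ 3 + 1) ≤ 9 * (q ^ 3 + 1) := mul_le_mul_of_nonneg_right h5 hq3
        have h7 : 0 ≤ q ^ 2 + 1 - 8 * (q + 1) := by nlinarith
        have h8 : 511 * (q ^ 2 + 1 - 8 * (q + 1)) ≤ (8 ^ 3 + e1) * (q ^ 2 + 1 - 8 * (q + 1)) :=
          mul_le_mul_of_nonneg_right (by rcases he1 with rfl | rfl <;> norm_num) h7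
        have h9 : 511 * (q ^ 2 + 1 - 8 * (q + 1)) ≤ 9 * (q ^ 3 + 1) := by linarith
        interval_cases q <;> norm_num at h9
    · by_cases hN4 : 4 ≤ N
      · exact hbig (by omega) hN4
      · have hN3 : N = 3 := by omega
        rw [hN3] at hX3 hcc hb
        refine big3 (X := u ^ 3 + e1) (w := u + e3) hq h ?_ ?_ hX3 hw1 hw2 ?_ hcc
        · rcases he1 with rfl | rfl <;> linarith
        · rcases he1 with rfl | rfl <;> linarith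
        · linarith
  · obtain ⟨hu2, hN4⟩ := hg4 rfl
    by_cases h3 : u = 3
    · have hw : u + e3 = 2 := by
        rcases hc with ⟨rfl, rfl, rfl, h⟩ | ⟨rfl, rfl, rfl, h⟩ | ⟨rfl, rfl, rfl, -⟩ <;> omega
      have a1 : (q ^ 2 - q + 1) * (q ^ 2 + 1 - 3 * (q + 1)) ≤ (3 * (u ^ N + e1)) * (q ^ 2 + 1 - 3 * (q + 1)) :=
        mul_le_mul_of_nonneg_right hX3 (by nlinarith)
      have := polyT hq
      rw [hw, h3] at hcc
      rw [h3] at a1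
      linarith
    · exact hbig (by omega) hN4

end P

end Cfsg.Agent.R2.Spec.X4.H10
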